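import Cfsg.Agent.H752.EP.RkAut

/-!
# Counting two-point stabilisers, own characteristic, bounded rank, part B (helper752)

As `OwnRank.lean`, with the number `D ≤ |A|^k` of elementary abelian `s`-subgroups, `s ≠ p`, instead of the number of
classes: `card_le_rank_d` : `|Q| ≤ |A|^(k+2)`, `k ≥ 3`.
-/

set_option autoImplicit false
set_option linter.unusedSectionVars false

namespace Cfsg.Agent.H752.EP

open Subgroup Cfsg.Agent.H284 Cfsg.Agent.H59.EP Cfsg.Agent.H528.EP Cfsg.Agent.H12.EP.BT Cfsg.Agent.H419.EP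

universe u

section count

variable {B : Type u} [Group B] [Finite B]

/-- **Counting theorem**, the prime `p` excluded. -/
theorem ncard_np_le_d (hg : TwoGen.{u}) {j : ℕ} (hB : MLe j B) {p D : ℕ}
    (hD : {X : Subgroup B | ∃ s : ℕ, s.Prime ∧ s ≠ p ∧ ElAb s X ∧ X ≠ ⊥}.ncard ≤ D) {E : ℕ}
    (hE : (∃ s : ℕ, s.Prime ∧ 5 ≤ s ∧ s ^ 2 ∣ Nat.card B) → Nat.card B ^ (2 + j) / 3600 ≤ E)
    {𝓜 : Set (Subgroup B)} (hnt : ∀ M ∈ 𝓜, M ≠ ⊥)
    (hch : ∀ M ∈ 𝓜, ∀ K : Subgroup M, K.Characteristic → K ≠ ⊥ → ∀ b : B,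
      (∀ k ∈ K.map M.subtype, b * k * b⁻¹ ∈ K.map M.subtype) → b ∈ M)
    (hnp : ∀ M ∈ 𝓜, ∀ K : Subgroup M, K.Characteristic → K ≠ ⊥ → ¬ ElAb p K) :
    𝓜.ncard ≤ D + Nat.card B ^ 2 / 60 + E := by
  classical
  -- the minimal characteristic subgroup
  have key : ∀ M ∈ 𝓜, ∃ X : Subgroup B, normalizer (X : Set B) = M ∧
      ((∃ s : ℕ, s.Prime ∧ s ≠ p ∧ ElAb s X ∧ X ≠ ⊥) ∨
        ((IsSimpleGroup X ∧ ¬ Group.IsSolvable X) ∧ ∃ a b : X, closure ({a, b} : Set X) = ⊤) ∨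
        ((∃ s : ℕ, s.Prime ∧ 5 ≤ s ∧ s ^ 2 ∣ Nat.card B) ∧ 3600 ≤ Nat.card X ∧ center X = ⊥ ∧
          ∃ f : Fin (2 + j) → X, closure (Set.range f) = ⊤)) := by
    intro M hM
    have hMn : Nontrivial M := (Subgroup.nontrivial_iff_ne_bot M).2 (hnt M hM)
    obtain ⟨Y, hY, hYne, hYmin⟩ := exists_min_char (B := M)
    have hYn : Nontrivial Y := (Subgroup.nontrivial_iff_ne_bot Y).2 hYne
    have hYc : ∀ Z : Subgroup Y, Z.Characteristic → Z = ⊥ ∨ Z = ⊤ := by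
      intro Z hZ
      by_cases hZb : Z = ⊥
      · exact Or.inl hZb
      right
      have h1 := hYmin (Z.map Y.subtype) char_trans (by
        rintro _ ⟨z, _, rfl⟩
        exact z.2) (by
        intro e
        rw [Subgroup.map_eq_bot_iff_of_injective _ Y.subtype_injective] at e
        exact hZb e)
      rw [Subgroup.eq_top_iff']
      intro y
      have h2 : (y : M) ∈ Z.map Y.subtype := by rw [h1]; exact y.2
      obtain ⟨z, hz, e⟩ := h2
      have : z = y := Subtype.ext e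
      rw [← this]
      exact hz
    set X : Subgroup B := Y.map M.subtype with hX
    have hcard : Nat.card X = Nat.card Y :=
      (Nat.card_congr (Y.equivMapOfInjective _ M.subtype_injective).toEquiv).symm
    have e : Y ≃* X := Y.equivMapOfInjective _ M.subtype_injective
    have hXB : Nat.card Y ∣ Nat.card B := by
      rw [← hcard]
      exact Subgroup.card_subgroup_dvd_card X
    have hXne : X ≠ ⊥ := by
      intro e
      rw [hX, Subgroup.map_eq_bot_iff_of_injective _ M.subtype_injective] at e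
      exact hYne e
    refine ⟨X, ?_, ?_⟩
    · apply le_antisymm
      · intro b hb
        exact hch M hM Y hY hYne b fun k hk => (mem_normalizer_iff.1 hb k).1 hk
      · intro m hm
        have hn : Y.Normal := inferInstance
        rw [mem_normalizer_iff]
        have key : ∀ m ∈ M, ∀ k ∈ X, m * k * m⁻¹ ∈ X := by
          rintro m hm _ ⟨k, hk, rfl⟩
          exact ⟨_, hn.conj_mem k hk ⟨m, hm⟩, rfl⟩
        intro k
        refine ⟨key m hm k, fun h => ?_⟩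
        have := key m⁻¹ (M.inv_mem hm) _ h
        have e : m⁻¹ * (m * k * m⁻¹) * m⁻¹⁻¹ = k := by group
        rwa [e] at this
    · rcases char_simple_m hg hYc (fun T _ _ m hT hTs ⟨e'⟩ => hB X T m hT hTs ⟨e.symm.trans e'⟩) with ⟨s, hs, hsd, hel⟩ | ⟨h1, h2⟩ | ⟨⟨s, hs, hs5, hsd⟩, h1, h2, f, h3⟩
      · left
        have hsp : s ≠ p := by
          rintro rfl
          refine hnp M hM Y hY hYne ⟨fun a ha b hb => ?_, fun a ha => ?_⟩
          · exact Subtype.ext_iff.1 (hel.comm ⟨a, ha⟩ (mem_top _) ⟨b, hb⟩ (mem_top _))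
          · exact Subtype.ext_iff.1 (hel.exp ⟨a, ha⟩ (mem_top _))
        refine ⟨s, hs, hsp, ⟨?_, ?_⟩, hXne⟩
        · rintro _ ⟨a, ha, rfl⟩ _ ⟨b, hb, rfl⟩
          have := hel.comm ⟨a, ha⟩ (mem_top _) ⟨b, hb⟩ (mem_top _)
          have h1 : a * b = b * a := Subtype.ext_iff.1 this
          rw [← map_mul, ← map_mul, h1]
        · rintro _ ⟨a, ha, rfl⟩
          have := hel.exp ⟨a, ha⟩ (mem_top _)
          have h1 : a ^ s = 1 := Subtype.ext_iff.1 this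
          rw [← map_pow, h1, map_one]
      · right; left
        have hXs : IsSimpleGroup X := e.symm.isSimpleGroup
        refine ⟨⟨hXs, fun h => h2 ?_⟩, hg X⟩
        exact Group.isSolvable_of_isSolvable_injective (f := e.toMonoidHom) e.injective
      · right; right
        refine ⟨⟨s, hs, hs5, hsd.trans hXB⟩, by rw [hcard]; exact h1, ?_, _, closure_range_of_equiv e.symm h3⟩
        rw [Subgroup.eq_bot_iff_forall]
        intro x hx
        have h4 : e.symm x ∈ center Y := by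
          rw [mem_center_iff] at hx ⊢
          intro y
          apply e.injective
          rw [map_mul, map_mul, MulEquiv.apply_symm_apply]
          exact hx _
        rw [h2, mem_bot] at h4
        exact (MulEquiv.map_eq_one_iff e.symm).1 h4
  choose! f hf1 hf2 using key
  have hinj : Set.InjOn f 𝓜 := by
    intro M hM N hN e
    rw [← hf1 M hM, ← hf1 N hN, e]
  rw [← hinj.ncard_image]
  have hsub : f '' 𝓜 ⊆ ({X : Subgroup B | ∃ s : ℕ, s.Prime ∧ s ≠ p ∧ ElAb s X ∧ X ≠ ⊥} ∪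
      {X : Subgroup B | (IsSimpleGroup X ∧ ¬ Group.IsSolvable X) ∧ ∃ a b : X, closure ({a, b} : Set X) = ⊤}) ∪
      {X : Subgroup B | (∃ s : ℕ, s.Prime ∧ 5 ≤ s ∧ s ^ 2 ∣ Nat.card B) ∧ 3600 ≤ Nat.card X ∧ center X = ⊥ ∧
        ∃ f : Fin (2 + j) → X, closure (Set.range f) = ⊤} := by
    rintro _ ⟨M, hM, rfl⟩
    rcases hf2 M hM with h1 | h | h
    · left; left
      exact h1
    · left; right
      exact h
    · right
      exact h
  refine (Set.ncard_le_ncard hsub (Set.toFinite _)).trans ((Set.ncard_union_le _ _).trans (Nat.add_le_add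
    ((Set.ncard_union_le _ _).trans (Nat.add_le_add hD ?_)) ?_))
  · exact ncard_simple_le (fun X hX => hX.1) (fun X hX => hX.2)
  · by_cases h5 : ∃ s : ℕ, s.Prime ∧ 5 ≤ s ∧ s ^ 2 ∣ Nat.card B
    · exact (ncard_dgen_le (by norm_num) (fun X hX => hX.2)).trans (hE h5)
    · have h0 : {X : Subgroup B | (∃ s : ℕ, s.Prime ∧ 5 ≤ s ∧ s ^ 2 ∣ Nat.card B) ∧ 3600 ≤ Nat.card X ∧
          center X = ⊥ ∧ ∃ f : Fin (2 + j) → X, closure (Set.range f) = ⊤} = ∅ := by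
        rw [Set.eq_empty_iff_forall_notMem]
        intro X hX
        exact h5 hX.1
      rw [h0, Set.ncard_empty]
      exact Nat.zero_le _

end count

/-- the number of elementary abelian subgroups from the rank -/
theorem ncard_elab_rank {B : Type u} [Group B] [Finite B] {p k : ℕ} (h : ∀ s : ℕ, s.Prime → s ≠ p → SRank B s k) :
    {X : Subgroup B | ∃ s : ℕ, s.Prime ∧ s ≠ p ∧ ElAb s X ∧ X ≠ ⊥}.ncard ≤ Nat.card B ^ k := by
  classical
  have hsub : {X : Subgroup B | ∃ s : ℕ, s.Prime ∧ s ≠ p ∧ ElAb s X ∧ X ≠ ⊥} ⊆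
      Set.range fun f : Fin k → B => closure (Set.range f) := by
    rintro X ⟨s, hs, hsp, hel, -⟩
    have : Fact s.Prime := ⟨hs⟩
    have h1 := h s hs hsp X (fun x hx y hy => hel.comm x hx y hy) (fun x hx => hel.exp x hx)
    have h2 : IsPGroup s X := by
      rintro ⟨y, hy⟩
      refine ⟨1, Subtype.ext ?_⟩
      rw [pow_one]
      exact hel.exp y hy
    obtain ⟨f, hf⟩ := exists_gen_pgroup h2 h1.2
    refine ⟨fun i => (f i : B), ?_⟩
    have h3 := congrArg (Subgroup.map X.subtype) hf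
    rw [MonoidHom.map_closure, ← Set.range_comp, ← MonoidHom.range_eq_map, X.range_subtype] at h3
    exact h3
  refine (Set.ncard_le_ncard hsub (Set.toFinite _)).trans ?_
  rw [← Set.image_univ]
  refine (Set.ncard_image_le (Set.toFinite _)).trans ?_
  rw [Set.ncard_univ, Nat.card_fun, Nat.card_eq_fintype_card (α := Fin k), Fintype.card_fin]

section own

variable {Q : Type u} [Group Q] [Finite Q] {A N : Subgroup Q} {Γ : Subgroup (MulAut Q)} {p : ℕ}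

/-- **the number of two-point stabilisers, own characteristic** -/
theorem EPT.ncard_own_d [Fact p.Prime] (h : EPT A Γ) (hg : TwoGen.{u}) (hS : LieSoc p A N) {j : ℕ}
    (hout : ∀ R : Subgroup Q, R ≤ A → IsPGroup p R → R ⊓ N = ⊥ → ∃ x ∈ R, R = zpowers x) (hj : MLe j A) {D : ℕ}
    (hC : {X : Subgroup A | ∃ s : ℕ, s.Prime ∧ s ≠ p ∧ ElAb s X ∧ X ≠ ⊥}.ncard ≤ D) {E : ℕ} (hE : (∃ s : ℕ, s.Prime ∧ 5 ≤ s ∧ s ^ 2 ∣ Nat.card A) → Nat.card A ^ (2 + j) / 3600 ≤ E) :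
    {M : Subgroup Q | ∃ x, x ∉ A ∧ M = A ⊓ cj x A}.ncard ≤
      Nat.card A + Nat.card A + (D + Nat.card A ^ 2 / 60 + E) := by
  classical
  set 𝓟 := {M : Subgroup Q | ∃ x, x ∉ A ∧ M = A ⊓ cj x A ∧ ∃ R : Subgroup Q, R ≤ A ⊓ cj x A ∧
      (∀ σ ∈ Γ, x⁻¹ * σ x ∈ A → ∀ k ∈ R, σ k ∈ R) ∧ IsPGroup p R ∧ R ⊓ N ≠ ⊥} with h𝓟
  set 𝓞 := {M : Subgroup Q | ∃ x, x ∉ A ∧ M = A ⊓ cj x A ∧ ∃ R : Subgroup Q, R ≤ A ⊓ cj x A ∧
      (∀ σ ∈ Γ, x⁻¹ * σ x ∈ A → ∀ k ∈ R, σ k ∈ R) ∧ IsPGroup p R ∧ R ≠ ⊥ ∧ R ⊓ N = ⊥} with h𝓞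
  set 𝓡 := {M : Subgroup Q | ∃ x, x ∉ A ∧ M = A ⊓ cj x A ∧ ∀ R : Subgroup Q, R ≤ A ⊓ cj x A →
      (∀ σ ∈ Γ, x⁻¹ * σ x ∈ A → ∀ k ∈ R, σ k ∈ R) → IsPGroup p R → R = ⊥} with h𝓡
  have hcov : {M : Subgroup Q | ∃ x, x ∉ A ∧ M = A ⊓ cj x A} ⊆ 𝓟 ∪ 𝓞 ∪ 𝓡 := by
    rintro _ ⟨x, hx, rfl⟩
    by_cases h1 : ∀ R : Subgroup Q, R ≤ A ⊓ cj x A → (∀ σ ∈ Γ, x⁻¹ * σ x ∈ A → ∀ k ∈ R, σ k ∈ R) → IsPGroup p R →
        R = ⊥
    · exact Or.inr ⟨x, hx, rfl, h1⟩
    · push Not at h1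
      obtain ⟨R, hR, hRn, hRp, hR1⟩ := h1
      by_cases hRN : R ⊓ N = ⊥
      · exact Or.inl (Or.inr ⟨x, hx, rfl, R, hR, hRn, hRp, hR1, hRN⟩)
      · exact Or.inl (Or.inl ⟨x, hx, rfl, R, hR, hRn, hRp, hRN⟩)
  refine (Set.ncard_le_ncard hcov (Set.toFinite _)).trans ((Set.ncard_union_le _ _).trans (Nat.add_le_add
    ((Set.ncard_union_le _ _).trans (Nat.add_le_add (hS.ncard_par h) (ncard_out_cyc hS h hout))) ?_))
  -- no invariant `p`-subgroups
  set 𝓜 : Set (Subgroup A) := {M | ∃ x, x ∉ A ∧ A ⊓ cj x A ∈ 𝓡 ∧ M = (A ⊓ cj x A).subgroupOf A} with h𝓜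
  have h1 : 𝓡.ncard ≤ 𝓜.ncard := by
    refine Set.ncard_le_ncard_of_injOn (fun M => M.subgroupOf A) ?_ ?_ (Set.toFinite _)
    · rintro _ ⟨x, hx, rfl, h2⟩
      exact ⟨x, hx, ⟨x, hx, rfl, h2⟩, rfl⟩
    · rintro _ ⟨x, _, rfl, _⟩ _ ⟨y, _, rfl, _⟩ e
      have e1 := congrArg (Subgroup.map A.subtype) e
      simp only [Subgroup.subgroupOf_map_subtype] at e1
      rw [inf_eq_left.2 (inf_le_left : A ⊓ cj x A ≤ A), inf_eq_left.2 (inf_le_left : A ⊓ cj y A ≤ A)] at e1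
      exact e1
  refine h1.trans (ncard_np_le_d hg hj hC hE ?_ ?_ ?_)
  · rintro _ ⟨x, hx, -, rfl⟩ e
    apply h.M0 x hx
    rw [Subgroup.subgroupOf_eq_bot] at e
    exact e.eq_bot_of_le inf_le_left
  · rintro _ ⟨x, hx, -, rfl⟩ K hK hne b hb
    set E : (A ⊓ cj x A).subgroupOf A ≃* (A ⊓ cj x A : Subgroup Q) :=
      Subgroup.subgroupOfEquivOfLe (inf_le_left : A ⊓ cj x A ≤ A) with hE
    have hch := char_map E hK
    have hn := h.norm_char hx (K.map E.toMonoidHom) (hK := hch) (by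
      intro e
      rw [Subgroup.map_eq_bot_iff_of_injective _ E.injective] at e
      exact hne e) (a := (b : Q)) b.2 (by
      rintro _ ⟨_, ⟨k, hk, rfl⟩, rfl⟩
      obtain ⟨k', hk', e'⟩ := hb _ ⟨k, hk, rfl⟩
      refine ⟨_, ⟨k', hk', rfl⟩, ?_⟩
      have e2 := congrArg (Subtype.val) e'
      exact e2)
    exact ⟨b.2, hn⟩
  · rintro _ ⟨x, hx, ⟨x', hx', exx', h𝓡x⟩, rfl⟩ K hK hne hel
    -- the image of `K` is invariant
    set R : Subgroup Q := (K.map ((A ⊓ cj x A).subgroupOf A).subtype).map A.subtype with hRdef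
    have hRmem : ∀ y, y ∈ R ↔ ∃ k ∈ K, ((k : A) : Q) = y := by
      intro y
      constructor
      · rintro ⟨_, ⟨k, hk, rfl⟩, rfl⟩
        exact ⟨k, hk, rfl⟩
      · rintro ⟨k, hk, rfl⟩
        exact ⟨_, ⟨k, hk, rfl⟩, rfl⟩
    have hRM : R ≤ A ⊓ cj x A := by
      intro y hy
      obtain ⟨k, _, rfl⟩ := (hRmem y).1 hy
      exact k.2
    have hRx : ∀ σ : MulAut Q, (∀ y ∈ A ⊓ cj x A, σ y ∈ A ⊓ cj x A) → ∀ k ∈ R, σ k ∈ R := by
      intro σ hσ
      have hA : ∀ y : (A ⊓ cj x A).subgroupOf A, σ ((y : A) : Q) ∈ A ⊓ cj x A := fun y => hσ _ y.2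
      let f : (A ⊓ cj x A).subgroupOf A →* (A ⊓ cj x A).subgroupOf A :=
        { toFun := fun y => ⟨⟨σ ((y : A) : Q), (mem_inf.1 (hA y)).1⟩, hA y⟩
          map_one' := by
            apply Subtype.ext
            apply Subtype.ext
            exact map_one σ
          map_mul' := fun y z => by
            apply Subtype.ext
            apply Subtype.ext
            exact map_mul σ _ _ }
      have hf : Function.Injective f := by
        intro y z e
        have e' : σ ((y : A) : Q) = σ ((z : A) : Q) := Subtype.ext_iff.1 (Subtype.ext_iff.1 e)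
        exact Subtype.ext (Subtype.ext (σ.injective e'))
      let τ : MulAut ((A ⊓ cj x A).subgroupOf A) := MulEquiv.ofBijective f (Finite.injective_iff_bijective.1 hf)
      have hτ : K.map τ.toMonoidHom = K := Subgroup.characteristic_iff_map_eq.1 hK τ
      intro y hy
      obtain ⟨k, hk, rfl⟩ := (hRmem y).1 hy
      have h2 : τ k ∈ K := by
        rw [← hτ]
        exact ⟨k, hk, rfl⟩
      exact (hRmem _).2 ⟨τ k, h2, rfl⟩
    have hRp : IsPGroup p R := by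
      rintro ⟨y, hy⟩
      obtain ⟨k, hk, rfl⟩ := (hRmem y).1 hy
      refine ⟨1, Subtype.ext ?_⟩
      rw [pow_one]
      have h3 := hel.exp k hk
      have h4 : ((k : A) : Q) ^ p = 1 := by
        have := congrArg (fun z : (A ⊓ cj x A).subgroupOf A => ((z : A) : Q)) h3
        simpa using this
      exact h4
    have h2 := h𝓡x R (exx' ▸ hRM) (fun σ hσ hσx => hRx σ fun y hy => by
      rw [exx'] at hy ⊢
      exact h.stab_M0 hσ hσx hy) hRp
    apply hne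
    rw [Subgroup.eq_bot_iff_forall]
    intro k hk
    have h3 : ((k : A) : Q) ∈ R := (hRmem _).2 ⟨k, hk, rfl⟩
    rw [h2, mem_bot] at h3
    exact Subtype.ext (Subtype.ext h3)

/-- **the bound for the index, own characteristic** -/
theorem EPT.index_own_d [Fact p.Prime] (hs : IsSimpleGroup Q) (h : EPT A Γ) (hg : TwoGen.{u}) (hS : LieSoc p A N)
    {j : ℕ} (hout : ∀ R : Subgroup Q, R ≤ A → IsPGroup p R → R ⊓ N = ⊥ → ∃ x ∈ R, R = zpowers x) (hj : MLe j A)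
    {D : ℕ} (hC : {X : Subgroup A | ∃ s : ℕ, s.Prime ∧ s ≠ p ∧ ElAb s X ∧ X ≠ ⊥}.ncard ≤ D) {E : ℕ}
    (hE : (∃ s : ℕ, s.Prime ∧ 5 ≤ s ∧ s ^ 2 ∣ Nat.card A) → Nat.card A ^ (2 + j) / 3600 ≤ E) :
    A.index ≤ 1 + (Nat.card A + Nat.card A + (D + Nat.card A ^ 2 / 60 + E)) *
      (2 * (Nat.card A / 6)) :=
  index_le_of (EPT.ncard_own_d h hg hS hout hj hC hE)
    (Cfsg.Agent.H173.EP.ub1 hs h (by norm_num) fun _ hx => EPT.six_le h hS.no_abelian hx) le_rfl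

end own

/-- the numbers -/
theorem num_rank_d {n k x y E i q : ℕ} (hk : 3 ≤ k) (hn : 60 ≤ n) (hx : 6 * x ≤ n) (hy : 60 * y ≤ n ^ 2)
    (hE : 3600 * E ≤ n ^ 3) (hi : i ≤ 1 + (n + n + (n ^ k + y + E)) * (2 * x)) (hq : q = n * i) :
    q ≤ n ^ (k + 2) := by
  have hn0 : 0 < n := by omega
  have e2 : n ^ (k + 1) = n ^ k * n := pow_succ n k
  have e3 : n ^ (k + 2) = n ^ (k + 1) * n := pow_succ n (k + 1)
  have h3 : n ^ 3 ≤ n ^ k := Nat.pow_le_pow_right hn0 (by omega)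
  have h2 : 60 * n ^ 2 ≤ n ^ 3 := by
    rw [pow_succ n 2, mul_comm]
    exact Nat.mul_le_mul_left _ hn
  have h1 : 60 * n ≤ n ^ 2 := by rw [sq]; exact Nat.mul_le_mul_right _ hn
  have hS : n + n + (n ^ k + y + E) ≤ 2 * n ^ k := by
    generalize n ^ k = w at *
    generalize n ^ 3 = u at *
    generalize n ^ 2 = v at *
    omega
  have h4 : (n + n + (n ^ k + y + E)) * (2 * x) ≤ 4 * (n ^ k * x) := by
    calc (n + n + (n ^ k + y + E)) * (2 * x) ≤ (2 * n ^ k) * (2 * x) := Nat.mul_le_mul_right _ hS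
      _ = _ := by ring
  have h5 : 6 * (n ^ k * x) ≤ n ^ (k + 1) := by
    rw [e2, show 6 * (n ^ k * x) = n ^ k * (6 * x) by ring]
    exact Nat.mul_le_mul_left _ hx
  have h6 : i ≤ n ^ (k + 1) := by
    have h7 : 60 ≤ n ^ (k + 1) := by
      calc 60 ≤ n := hn
        _ = n ^ 1 := (pow_one n).symm
        _ ≤ n ^ (k + 1) := Nat.pow_le_pow_right hn0 (by omega)
    omega
  rw [hq, e3, mul_comm]
  exact Nat.mul_le_mul_right _ h6

/-- **the closed form** -/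
theorem card_le_rank_d {Q : Type u} [Group Q] [Finite Q] {A N : Subgroup Q} {Γ : Subgroup (MulAut Q)} {p : ℕ}
    [Fact p.Prime] (hs : IsSimpleGroup Q) (h : EPT A Γ) (hg : TwoGen.{u}) (hS : LieSoc p A N)
    (hout : ∀ R : Subgroup Q, R ≤ A → IsPGroup p R → R ⊓ N = ⊥ → ∃ x ∈ R, R = zpowers x)
    {k : ℕ} (hk : 3 ≤ k) (hr : ∀ s : ℕ, s.Prime → s ≠ p → SRank A s k) (h5 : ∀ s : ℕ, s.Prime → 5 ≤ s → SRank A s 60) :
    Nat.card Q ≤ Nat.card A ^ (k + 2) := by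
  have h1 := EPT.index_own_d hs h hg hS (j := 1) hout (mLe_of_srank h5 (by norm_num)) (ncard_elab_rank hr)
    (E := Nat.card A ^ (2 + 1) / 3600) (fun _ => le_rfl)
  exact num_rank_d hk (sixty_le_card hS) (Nat.mul_div_le _ 6) (Nat.mul_div_le _ 60) (Nat.mul_div_le _ 3600) h1
    (A.card_mul_index).symm

end Cfsg.Agent.H752.EP
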