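import Cfsg.Agent.H752.EP.Three
import Cfsg.Agent.H419.EP.Soc

/-!
# The `s`-rank: abstract tools (helper752)

`SRank M s k`: every elementary abelian `s`-subgroup of `M` has order at most `s^k`.
-/

set_option autoImplicit false

namespace Cfsg.Agent.H752.EP

open Subgroup

/-- every elementary abelian `s`-subgroup has order at most `s^k` -/
def SRank (M : Type*) [Group M] (s k : ℕ) : Prop :=
  ∀ X : Subgroup M, (∀ x ∈ X, ∀ y ∈ X, x * y = y * x) → (∀ x ∈ X, x ^ s = 1) → Nat.card X ≠ 0 ∧ Nat.card X ≤ s ^ k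

theorem SRank.mono {M : Type*} [Group M] {s k l : ℕ} (hs : 0 < s) (h : SRank M s k) (hkl : k ≤ l) : SRank M s l :=
  fun X h1 h2 => ⟨(h X h1 h2).1, (h X h1 h2).2.trans (Nat.pow_le_pow_right hs hkl)⟩

theorem SRank.of_injective {M N : Type*} [Group M] [Group N] {s k : ℕ} (h : SRank M s k) (f : N →* M)
    (hf : Function.Injective f) : SRank N s k := by
  intro X h1 h2
  have h3 := h (X.map f) (by
    rintro _ ⟨x, hx, rfl⟩ _ ⟨y, hy, rfl⟩
    rw [← map_mul, h1 x hx y hy, map_mul]) (by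
    rintro _ ⟨x, hx, rfl⟩
    rw [← map_pow, h2 x hx, map_one])
  have h4 : Nat.card (X.map f) = Nat.card X := (Nat.card_congr (X.equivMapOfInjective f hf).toEquiv).symm
  rwa [h4] at h3

/-- transfer to `A` with socle `L` -/
theorem SRank.of_hasSoc {Q : Type*} [Group Q] {A : Subgroup Q} {L : Type*} [Group L] {s k : ℕ}
    (h : SRank (MulAut L) s k) (hA : Cfsg.Agent.H419.EP.HasSoc A L) : SRank A s k := by
  obtain ⟨f, hf⟩ := hA.exists_hom
  exact h.of_injective f hf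

/-- subgroups of `Q` inside `A` -/
theorem SRank.card_le {Q : Type*} [Group Q] {A : Subgroup Q} {s k : ℕ} (h : SRank A s k) {X : Subgroup Q} (hXA : X ≤ A)
    (h1 : ∀ x ∈ X, ∀ y ∈ X, x * y = y * x) (h2 : ∀ x ∈ X, x ^ s = 1) : Nat.card X ≠ 0 ∧ Nat.card X ≤ s ^ k := by
  have h3 := h (X.subgroupOf A) (by
    rintro ⟨x, hxA⟩ hx ⟨y, hyA⟩ hy
    exact Subtype.ext (h1 x hx y hy)) (by
    rintro ⟨x, hxA⟩ hx
    exact Subtype.ext (h2 x hx))
  have h4 : Nat.card (X.subgroupOf A) = Nat.card X := Nat.card_congr (Subgroup.subgroupOfEquivOfLe hXA).toEquiv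
  rwa [h4] at h3

theorem card_ext {M : Type*} [Group M] (N X : Subgroup M) {T : Type*} [Finite T] (f : X → T)
    (hf : ∀ x y : X, f x = f y → (x : M)⁻¹ * y ∈ N) (h1 : Nat.card ↥(X ⊓ N) ≠ 0) :
    Nat.card X ≠ 0 ∧ Nat.card X ≤ Nat.card T * Nat.card ↥(X ⊓ N) := by
  have h0 : Nat.card (N.subgroupOf X) = Nat.card ↥(X ⊓ N) := by
    rw [inf_comm, ← Subgroup.inf_subgroupOf_right N X]
    exact Nat.card_congr (Subgroup.subgroupOfEquivOfLe inf_le_right).toEquiv
  have hinj : Function.Injective (fun q : X ⧸ N.subgroupOf X => f q.out) := by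
    intro q q' h
    have h1 : (q.out)⁻¹ * q'.out ∈ N.subgroupOf X := hf _ _ h
    rw [← QuotientGroup.eq] at h1
    rwa [QuotientGroup.out_eq', QuotientGroup.out_eq'] at h1
  have hfq : Finite (X ⧸ N.subgroupOf X) := Finite.of_injective _ hinj
  have h2 : (N.subgroupOf X).index ≤ Nat.card T := Nat.card_le_card_of_injective _ hinj
  have h3 : (N.subgroupOf X).index ≠ 0 := Subgroup.index_ne_zero_of_finite
  have h4 : Nat.card X = (N.subgroupOf X).index * Nat.card ↥(X ⊓ N) := by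
    rw [← h0, (N.subgroupOf X).index_mul_card]
  rw [h4]
  exact ⟨mul_ne_zero h3 h1, Nat.mul_le_mul_right _ h2⟩

/-- the layer of `PGL_3` -/
theorem card_layer {F : Type*} [Field F] {M G : Type*} [Group M] [Group G] {s : ℕ} (hs : s.Prime) (hsF : (s : F) ≠ 0)
    (Ψ : G →* M) (ρ : G →* GL (Fin 3) F)
    (hker : ∀ g, Ψ g = 1 → ∃ c : F, (ρ g : Matrix (Fin 3) (Fin 3) F) = Matrix.scalar (Fin 3) c)
    (hker' : ∀ g, (∃ c : F, (ρ g : Matrix (Fin 3) (Fin 3) F) = Matrix.scalar (Fin 3) c) → Ψ g = 1)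
    (X : Subgroup M) (hX : ∀ x ∈ X, ∀ y ∈ X, x * y = y * x) (hXs : ∀ x ∈ X, x ^ s = 1) (hXr : X ≤ Ψ.range) :
    Nat.card X ≠ 0 ∧ Nat.card X ≤ s ^ 2 := by
  set Y := X.comap Ψ with hY
  let φ : Y →* X := { toFun := fun y => ⟨Ψ y, y.2⟩, map_one' := Subtype.ext (map_one Ψ), map_mul' := fun a b => Subtype.ext (map_mul Ψ _ _) }
  have hφ : Function.Surjective φ := by
    rintro ⟨x, hx⟩
    obtain ⟨g, rfl⟩ := hXr hx
    exact ⟨⟨g, hx⟩, rfl⟩
  have h1 := three_index hs hsF (ρ.comp Y.subtype) (by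
    intro x y
    have h2 : Ψ (x * y * (x : G)⁻¹ * (y : G)⁻¹) = 1 := by
      rw [map_mul, map_mul, map_mul, map_inv, map_inv, hX _ x.2 _ y.2, mul_inv_cancel_right, mul_inv_cancel]
    obtain ⟨c, hc⟩ := hker _ h2
    refine ⟨c, ?_⟩
    show (ρ x : Matrix (Fin 3) (Fin 3) F) * ρ y = _ * ((ρ y : Matrix (Fin 3) (Fin 3) F) * ρ x)
    rw [← hc, ← Units.val_mul, ← Units.val_mul, ← Units.val_mul, ← map_mul, ← map_mul, ← map_mul]
    congr 2
    group) (by
    intro x
    have h2 : Ψ ((x : G) ^ s) = 1 := by rw [map_pow, hXs _ x.2]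
    obtain ⟨c, hc⟩ := hker _ h2
    refine ⟨c, ?_⟩
    rw [← hc]
    show (ρ x : Matrix (Fin 3) (Fin 3) F) ^ s = _
    rw [map_pow, Units.val_pow_eq_pow_val]) φ.ker (by
    intro x hx
    rw [MonoidHom.mem_ker]
    exact Subtype.ext (hker' x hx))
  have h3 : φ.ker.index = Nat.card X := by
    rw [Subgroup.index_ker, MonoidHom.range_eq_top.2 hφ]
    exact Subgroup.card_top
  rwa [h3] at h1

/-- elements of order dividing `s` in a finite cyclic group -/
theorem card_pow_le {C : Type*} [Group C] [Finite C] [IsCyclic C] {s : ℕ} (hs : 0 < s) :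
    Nat.card {c : C // c ^ s = 1} ≤ s := by
  classical
  have : Fintype C := Fintype.ofFinite C
  have h1 := IsCyclic.card_pow_eq_one_le (α := C) hs
  rw [Nat.card_eq_fintype_card, Fintype.card_subtype]
  exact h1

end Cfsg.Agent.H752.EP
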