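import Cfsg.Agent.H752.EP.Torus

/-!
# The `s`-rank of `PGL_3` (helper752)

`three_index`: `ρ : Y →* GL_3(F)`, commutators and `s`-th powers scalar, `s` a prime different from the characteristic:
the elements with scalar image form a subgroup of index at most `s^2`.
-/

set_option autoImplicit false

open Polynomial Module

namespace Cfsg.Agent.H752.EP

variable {F : Type*} [Field F]

/-- the centralizer of a non commuting pair -/
theorem scalar_of_pair {K : Type*} [Field K] [IsAlgClosed K] {a b m : Module.End K (Fin 3 → K)} {c : K}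
    (ha : Function.Injective a) (hb : Function.Injective b) (hab : a * b = c • (b * a)) (hc0 : c ≠ 0) (hc1 : c ≠ 1)
    (hc3 : c ^ 3 = 1) (hma : m * a = a * m) (hmb : m * b = b * m) : ∃ l : K, m = l • 1 := by
  obtain ⟨l, hl⟩ := Module.End.exists_eigenvalue a
  obtain ⟨v, hv⟩ := hl.exists_hasEigenvector
  have hv0 : v ≠ 0 := hv.2
  have hav : a v = l • v := hv.apply_eq_smul
  have hl0 : l ≠ 0 := by
    rintro rfl
    rw [zero_smul] at hav
    exact hv0 (ha (by rw [hav, map_zero]))
  -- powers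
  have hbv : ∀ i : ℕ, a ((b ^ i) v) = (l * c ^ i) • (b ^ i) v := by
    intro i
    induction i with
    | zero => simpa using hav
    | succ i ih =>
      have h1 : a ((b ^ (i + 1)) v) = (a * b) ((b ^ i) v) := by
        rw [pow_succ', Module.End.mul_apply, Module.End.mul_apply]
      rw [h1, hab, LinearMap.smul_apply, Module.End.mul_apply, ih, map_smul, smul_smul, pow_succ' b i, Module.End.mul_apply]
      congr 1
      ring
  have hne : ∀ i : ℕ, (b ^ i) v ≠ 0 := by
    intro i
    induction i with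
    | zero => simpa using hv0
    | succ i ih =>
      rw [pow_succ', Module.End.mul_apply]
      intro h
      exact ih (hb (by rw [h, map_zero]))
  have hc2 : c ^ 2 ≠ 1 := by
    intro h
    apply hc1
    calc c = c ^ 3 * (c ^ 2)⁻¹ := by field_simp
      _ = 1 := by rw [h, hc3, inv_one, one_mul]
  let μ : Fin 3 → K := fun i => l * c ^ (i : ℕ)
  have hlt : ∀ i j : ℕ, i < j → j < 3 → c ^ i ≠ c ^ j := by
    intro i j hij hj h
    have h1 : c ^ (j - i) = 1 := by
      apply mul_left_cancel₀ (pow_ne_zero i hc0)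
      rw [mul_one, ← pow_add, Nat.add_sub_cancel' hij.le, h]
    rcases (by omega : j - i = 1 ∨ j - i = 2) with h2 | h2 <;> rw [h2] at h1
    · rw [pow_one] at h1
      exact hc1 h1
    · exact hc2 h1
  have hμ : Function.Injective μ := by
    intro i j hij
    have h1 : c ^ (i : ℕ) = c ^ (j : ℕ) := mul_left_cancel₀ hl0 hij
    rcases lt_trichotomy (i : ℕ) (j : ℕ) with h | h | h
    · exact absurd h1 (hlt _ _ h j.2)
    · exact Fin.ext h
    · exact absurd h1.symm (hlt _ _ h i.2)
  let w : Fin 3 → (Fin 3 → K) := fun i => (b ^ (i : ℕ)) v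
  have hw : LinearIndependent K w := by
    refine Module.End.eigenvectors_linearIndependent' a μ hμ w fun i => ?_
    exact ⟨Module.End.mem_eigenspace_iff.2 (hbv i), hne i⟩
  have hfr : Fintype.card (Fin 3) = finrank K (Fin 3 → K) := by rw [Module.finrank_fin_fun, Fintype.card_fin]
  let B := basisOfLinearIndependentOfCardEqFinrank hw hfr
  have hB : ∀ i, B i = w i := fun i => by
    show basisOfLinearIndependentOfCardEqFinrank hw hfr i = _
    rw [coe_basisOfLinearIndependentOfCardEqFinrank]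
  -- `m v`
  have hmv : a (m v) = l • m v := by
    have h1 : a (m v) = (a * m) v := rfl
    rw [h1, ← hma, Module.End.mul_apply, hav, map_smul]
  set r : Fin 3 → K := fun i => B.repr (m v) i with hr
  have hsum : m v = ∑ i, r i • w i := by
    rw [← B.sum_repr (m v)]
    exact Finset.sum_congr rfl fun i _ => by rw [hB]
  have h1 : a (m v) = ∑ i, (r i * μ i) • w i := by
    rw [hsum, map_sum]
    refine Finset.sum_congr rfl fun i _ => ?_
    rw [map_smul]
    show r i • a ((b ^ (i : ℕ)) v) = _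
    rw [hbv, smul_smul]
  have h2 : l • m v = ∑ i, (r i * l) • w i := by
    rw [hsum, Finset.smul_sum]
    refine Finset.sum_congr rfl fun i _ => ?_
    rw [smul_smul, mul_comm]
  have h3 : ∀ i, r i * (μ i - l) = 0 := by
    have h4 : ∑ i, (r i * (μ i - l)) • w i = 0 := by
      have h5 : ∑ i, (r i * (μ i - l)) • w i = (∑ i, (r i * μ i) • w i) - ∑ i, (r i * l) • w i := by
        rw [← Finset.sum_sub_distrib]
        refine Finset.sum_congr rfl fun i _ => ?_
        rw [mul_sub, sub_smul]
      rw [h5, ← h1, ← h2, hmv, sub_self]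
    exact Fintype.linearIndependent_iff.1 hw _ h4
  have h4 : ∀ i : Fin 3, i ≠ 0 → r i = 0 := by
    intro i hi
    rcases mul_eq_zero.1 (h3 i) with h | h
    · exact h
    · exfalso
      apply hi
      apply hμ
      rw [sub_eq_zero] at h
      rw [h]
      simp [μ]
  have h5 : m v = r 0 • v := by
    rw [hsum, Fin.sum_univ_three, h4 1 (by decide), h4 2 (by decide), zero_smul, zero_smul, add_zero, add_zero]
    simp [w]
  have hmpow : ∀ i : ℕ, m ((b ^ i) v) = r 0 • (b ^ i) v := by
    intro i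
    induction i with
    | zero => simpa using h5
    | succ i ih =>
      rw [pow_succ', Module.End.mul_apply]
      have h6 : m (b ((b ^ i) v)) = (m * b) ((b ^ i) v) := rfl
      rw [h6, hmb, Module.End.mul_apply, ih, map_smul]
  refine ⟨r 0, B.ext fun i => ?_⟩
  rw [hB]
  show m ((b ^ (i : ℕ)) v) = _
  rw [hmpow]
  rfl

theorem Tm_smul (n : ℕ) (c : F) (A : Matrix (Fin n) (Fin n) F) :
    Tm F n (Matrix.scalar (Fin n) c * A) = (algebraMap F (AlgebraicClosure F) c) • Tm F n A := by
  rw [map_mul, Tm_scalar, smul_mul_assoc, one_mul]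

theorem Tm_inj {n : ℕ} (g : GL (Fin n) F) : Function.Injective (Tm F n (g : Matrix (Fin n) (Fin n) F)) := by
  have h1 : Tm F n ((g⁻¹ : GL (Fin n) F) : Matrix (Fin n) (Fin n) F) * Tm F n (g : Matrix (Fin n) (Fin n) F) = 1 := by
    rw [← map_mul, ← Units.val_mul, inv_mul_cancel, Units.val_one, map_one]
  intro x y hxy
  have h2 := congrArg (Tm F n ((g⁻¹ : GL (Fin n) F) : Matrix (Fin n) (Fin n) F)) hxy
  rw [← Module.End.mul_apply, ← Module.End.mul_apply, h1, Module.End.one_apply, Module.End.one_apply] at h2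
  exact h2

/-- **the `s`-rank of `PGL_3`** -/
theorem three_index {s : ℕ} (hs : s.Prime) (hsF : (s : F) ≠ 0) {Y : Type*} [Group Y]
    (ρ : Y →* GL (Fin 3) F)
    (hcomm : ∀ x y, ∃ c : F, (ρ x : Matrix (Fin 3) (Fin 3) F) * ρ y = Matrix.scalar (Fin 3) c * (ρ y * ρ x))
    (hpow : ∀ x, ∃ c : F, ((ρ x : Matrix (Fin 3) (Fin 3) F)) ^ s = Matrix.scalar (Fin 3) c)
    (Z : Subgroup Y) (hZ : ∀ x, (∃ c : F, (ρ x : Matrix (Fin 3) (Fin 3) F) = Matrix.scalar (Fin 3) c) → x ∈ Z) :
    Z.index ≠ 0 ∧ Z.index ≤ s ^ 2 := by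
  classical
  by_cases hab : ∀ x y, ρ x * ρ y = ρ y * ρ x
  · exact torus_index hs hsF ρ hab hpow Z hZ
  push Not at hab
  obtain ⟨a, b, hab⟩ := hab
  choose C hC using hcomm
  have hC0 : ∀ x y, C x y ^ 3 = 1 := by
    intro x y
    have h1 := congrArg Matrix.det (hC x y)
    rw [Matrix.det_mul, Matrix.det_mul, Matrix.det_mul, Matrix.scalar_apply, Matrix.det_diagonal,
      Finset.prod_const, Finset.card_univ, Fintype.card_fin] at h1
    have h2 : (ρ x : Matrix (Fin 3) (Fin 3) F).det ≠ 0 := ((Matrix.isUnit_iff_isUnit_det _).1 (ρ x).isUnit).ne_zero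
    have h3 : (ρ y : Matrix (Fin 3) (Fin 3) F).det ≠ 0 := ((Matrix.isUnit_iff_isUnit_det _).1 (ρ y).isUnit).ne_zero
    apply mul_right_cancel₀ (mul_ne_zero h3 h2)
    rw [← h1, one_mul, mul_comm]
  have hCne : ∀ x y, C x y ≠ 0 := fun x y h => by
    have := hC0 x y
    rw [h] at this
    norm_num at this
  have hscl : ∀ {c d : F} {g : GL (Fin 3) F}, Matrix.scalar (Fin 3) c * (g : Matrix (Fin 3) (Fin 3) F) =
      Matrix.scalar (Fin 3) d * g → c = d := by
    intro c d g h
    have h1 := congrArg (· * ((g⁻¹ : GL (Fin 3) F) : Matrix (Fin 3) (Fin 3) F)) h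
    simp only [mul_assoc, ← Units.val_mul, mul_inv_cancel, Units.val_one, mul_one] at h1
    exact (Matrix.scalar_inj).1 h1
  have hC1 : C a b ≠ 1 := by
    intro h
    have h1 := hC a b
    rw [h, map_one, one_mul] at h1
    exact hab (Units.ext h1)
  have hswap : ∀ (c : F) (M : Matrix (Fin 3) (Fin 3) F), M * Matrix.scalar (Fin 3) c = Matrix.scalar (Fin 3) c * M :=
    fun c M => (Matrix.scalar_commute c (fun r' => mul_comm _ _) M).eq.symm
  -- `s = 3`
  have hCs : ∀ x y, C x y ^ s = 1 := by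
    intro x y
    have h1 : ∀ k : ℕ, (ρ x : Matrix (Fin 3) (Fin 3) F) ^ k * ρ y =
        Matrix.scalar (Fin 3) (C x y ^ k) * (ρ y * (ρ x : Matrix (Fin 3) (Fin 3) F) ^ k) := by
      intro k
      induction k with
      | zero => rw [pow_zero, pow_zero, one_mul, mul_one, map_one, one_mul]
      | succ k ih =>
        calc (ρ x : Matrix (Fin 3) (Fin 3) F) ^ (k + 1) * ρ y
            = (ρ x : Matrix (Fin 3) (Fin 3) F) ^ k * (ρ x * ρ y) := by rw [pow_succ, mul_assoc]
          _ = (ρ x : Matrix (Fin 3) (Fin 3) F) ^ k * (Matrix.scalar (Fin 3) (C x y) * (ρ y * ρ x)) := by rw [hC x y]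
          _ = Matrix.scalar (Fin 3) (C x y) * (((ρ x : Matrix (Fin 3) (Fin 3) F) ^ k * ρ y) * ρ x) := by
              rw [← mul_assoc, hswap, mul_assoc, mul_assoc]
          _ = Matrix.scalar (Fin 3) (C x y) * ((Matrix.scalar (Fin 3) (C x y ^ k) * (ρ y * (ρ x : Matrix (Fin 3) (Fin 3) F) ^ k)) * ρ x) := by
              rw [ih]
          _ = _ := by
              rw [mul_assoc, mul_assoc, ← pow_succ, ← mul_assoc, ← map_mul, ← pow_succ']
    obtain ⟨c, hc⟩ := hpow x
    have h2 := h1 s
    have h3 : ((ρ x ^ s : GL (Fin 3) F) : Matrix (Fin 3) (Fin 3) F) = Matrix.scalar (Fin 3) c := by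
      rw [Units.val_pow_eq_pow_val, hc]
    rw [hc, hswap] at h2
    have hcne : c ≠ 0 := by
      rintro rfl
      rw [map_zero] at h3
      exact (ρ x ^ s).ne_zero h3
    rw [← mul_assoc, ← map_mul] at h2
    have h4 := hscl h2
    apply mul_right_cancel₀ hcne
    rw [one_mul, ← h4]
  have hs3 : s = 3 := by
    by_contra hne
    have h1 : Nat.Coprime 3 s := (Nat.coprime_primes Nat.prime_three hs).2 fun h => hne h.symm
    have h2 : orderOf (C a b) ∣ Nat.gcd 3 s := Nat.dvd_gcd (orderOf_dvd_of_pow_eq_one (hC0 a b))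
      (orderOf_dvd_of_pow_eq_one (hCs a b))
    rw [h1, Nat.dvd_one, orderOf_eq_one_iff] at h2
    exact hC1 h2
  -- the homomorphisms
  have hmul : ∀ x y z, C (x * y) z = C x z * C y z := by
    intro x y z
    have h1 := hC (x * y) z
    have h2 : (ρ (x * y) : Matrix (Fin 3) (Fin 3) F) = ρ x * ρ y := by rw [map_mul, Units.val_mul]
    rw [h2, mul_assoc, hC y z, ← mul_assoc, hswap, mul_assoc, ← mul_assoc (ρ x : Matrix (Fin 3) (Fin 3) F), hC x z] at h1
    have h3 : Matrix.scalar (Fin 3) (C y z * C x z) * ((ρ z * (ρ x * ρ y) : GL (Fin 3) F) : Matrix (Fin 3) (Fin 3) F) =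
        Matrix.scalar (Fin 3) (C (x * y) z) * ((ρ z * (ρ x * ρ y) : GL (Fin 3) F) : Matrix (Fin 3) (Fin 3) F) := by
      rw [Units.val_mul, Units.val_mul, ← h1, map_mul]
      simp only [mul_assoc]
    rw [← hscl h3, mul_comm]
  let R : Finset F := nthRootsFinset 3 (1 : F)
  have hR : R.card ≤ 3 := by
    have h1 := Polynomial.card_nthRoots 3 (1 : F)
    refine le_trans ?_ h1
    show (nthRootsFinset 3 (1 : F)).card ≤ _
    unfold nthRootsFinset
    exact Multiset.toFinset_card_le _
  let f : Y → R × R := fun x => (⟨C x a, by rw [Polynomial.mem_nthRootsFinset (by norm_num)]; exact hC0 x a⟩,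
    ⟨C x b, by rw [Polynomial.mem_nthRootsFinset (by norm_num)]; exact hC0 x b⟩)
  have hf : ∀ x y, f x = f y → x⁻¹ * y ∈ Z := by
    intro x y h
    have h1 : C x a = C y a := congrArg (fun z => (z.1 : F)) h
    have h2 : C x b = C y b := congrArg (fun z => (z.2 : F)) h
    have h3 : C (x⁻¹ * y) a = 1 := by
      have h4 := hmul x (x⁻¹ * y) a
      rw [mul_inv_cancel_left, ← h1] at h4
      exact mul_left_cancel₀ (hCne x a) (by rw [mul_one]; exact h4.symm)
    have h3' : C (x⁻¹ * y) b = 1 := by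
      have h4 := hmul x (x⁻¹ * y) b
      rw [mul_inv_cancel_left, ← h2] at h4
      exact mul_left_cancel₀ (hCne x b) (by rw [mul_one]; exact h4.symm)
    apply hZ
    have h5 := hC (x⁻¹ * y) a
    have h6 := hC (x⁻¹ * y) b
    rw [h3, map_one, one_mul] at h5
    rw [h3', map_one, one_mul] at h6
    have h7 := congrArg (Tm F 3) (hC a b)
    rw [Tm_smul, map_mul, map_mul] at h7
    have h8 := congrArg (Tm F 3) h5
    have h9 := congrArg (Tm F 3) h6
    rw [map_mul (Tm F 3), map_mul (Tm F 3)] at h8 h9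
    have hj : Function.Injective (algebraMap F (AlgebraicClosure F)) := (algebraMap F (AlgebraicClosure F)).injective
    obtain ⟨l, hl⟩ := scalar_of_pair (Tm_inj (ρ a)) (Tm_inj (ρ b)) h7
      (fun h => hCne a b (hj (by rw [h, map_zero]))) (fun h => hC1 (hj (by rw [h, map_one])))
      (by rw [← map_pow, hC0, map_one]) h8 h9
    exact scalar_of_Tm hl
  have hinj : Function.Injective (fun q : Y ⧸ Z => f q.out) := by
    intro q q' h
    have h1 := hf _ _ h
    rw [← QuotientGroup.eq] at h1
    rwa [QuotientGroup.out_eq', QuotientGroup.out_eq'] at h1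
  have hfq : Finite (Y ⧸ Z) := Finite.of_injective _ hinj
  refine ⟨Subgroup.index_ne_zero_of_finite, ?_⟩
  calc Z.index = Nat.card (Y ⧸ Z) := rfl
    _ ≤ Nat.card (R × R) := Nat.card_le_card_of_injective _ hinj
    _ = R.card * R.card := by
      rw [Nat.card_prod, Nat.card_eq_fintype_card, Fintype.card_coe]
    _ ≤ 3 * 3 := Nat.mul_le_mul hR hR
    _ = s ^ 2 := by rw [hs3]; norm_num

end Cfsg.Agent.H752.EP
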